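import Mathlib

/-!
# S5210, `q = 2`, piece (2U): group theory (helper568)
-/

set_option autoImplicit false

namespace Cfsg.Agent.H568.P4

universe u

section
variable {X : Type u} [Group X]

/-- in a group of order `36` two subgroups of order `9` meet in a central subgroup -/
theorem centre_of_two (hX : Nat.card X = 36) {Q R : Subgroup X} (hQ : Nat.card Q = 9) (hR : Nat.card R = 9)
    (hne : Q ≠ R) : ∃ d : X, d ≠ 1 ∧ d ^ 9 = 1 ∧ ∀ x, d * x = x * d := by
  have : Fact (Nat.Prime 3) := ⟨by norm_num⟩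
  have : Finite X := Nat.finite_of_card_ne_zero (by omega)
  have hQc : IsMulCommutative Q := IsPGroup.isMulCommutative_of_card_eq_prime_sq (p := 3) (by rw [hQ]; norm_num)
  have hRc : IsMulCommutative R := IsPGroup.isMulCommutative_of_card_eq_prime_sq (p := 3) (by rw [hR]; norm_num)
  set D := Q ⊓ R with hD
  have hDQ : Nat.card D ∣ 9 := by rw [← hQ]; exact Subgroup.card_dvd_of_le inf_le_left
  -- D is not trivial
  have hD1 : Nat.card D ≠ 1 := by
    intro h1
    have hb : D = ⊥ := Subgroup.card_eq_one.1 h1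
    have hinj := Subgroup.mul_injective_of_disjoint (disjoint_iff.2 hb)
    have := Nat.card_le_card_of_injective _ hinj
    rw [Nat.card_prod, hQ, hR, hX] at this
    omega
  have hD9 : Nat.card D ≠ 9 := by
    intro h9
    have h1 : D = Q := Subgroup.eq_of_le_of_card_ge inf_le_left (by rw [h9, hQ])
    have h2 : D = R := Subgroup.eq_of_le_of_card_ge inf_le_right (by rw [h9, hR])
    exact hne (h1.symm.trans h2)
  have hD3 : Nat.card D = 3 := by
    have h3 : Nat.card D ≤ 9 := Nat.le_of_dvd (by norm_num) hDQ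
    interval_cases h : Nat.card D <;> omega
  set C := Subgroup.centralizer (D : Set X) with hC
  have hQC : Q ≤ C := by
    intro x hx
    rw [hC, Subgroup.mem_centralizer_iff]
    intro d hd
    have := hQc.is_comm.comm (⟨d, hd.1⟩ : Q) ⟨x, hx⟩
    exact congrArg Subtype.val this
  have hRC : R ≤ C := by
    intro x hx
    rw [hC, Subgroup.mem_centralizer_iff]
    intro d hd
    have := hRc.is_comm.comm (⟨d, hd.2⟩ : R) ⟨x, hx⟩
    exact congrArg Subtype.val this
  have hCc : Nat.card C = R.relIndex C * 9 := by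
    have := Subgroup.relIndex_mul_relIndex (⊥ : Subgroup X) R C bot_le hRC
    rw [Subgroup.relIndex_bot_left, Subgroup.relIndex_bot_left, hR] at this
    rw [← this, mul_comm]
  have hC0 : R.relIndex C ≠ 0 := by
    intro h
    rw [h, zero_mul] at hCc
    exact Nat.card_pos.ne' hCc
  have hrel : R.relIndex Q ≤ R.relIndex C := Subgroup.relIndex_le_of_le_right hQC hC0
  have h3 : R.relIndex Q = 3 := by
    have h1 : R.relIndex Q = D.relIndex Q := by rw [hD, inf_comm, Subgroup.inf_relIndex_right]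
    have h2 := Subgroup.relIndex_mul_relIndex (⊥ : Subgroup X) D Q bot_le inf_le_left
    rw [Subgroup.relIndex_bot_left, Subgroup.relIndex_bot_left, hQ, hD3] at h2
    omega
  have hC36 : Nat.card C ∣ 36 := by rw [← hX]; exact Subgroup.card_subgroup_dvd_card C
  have hCtop : C = ⊤ := by
    apply Subgroup.eq_top_of_card_eq
    rw [hX, hCc]
    rw [hCc] at hC36
    have h4 : R.relIndex C ∣ 4 := by
      have : R.relIndex C * 9 ∣ 4 * 9 := hC36
      exact Nat.dvd_of_mul_dvd_mul_right (by norm_num) this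
    have h5 : R.relIndex C ≤ 4 := Nat.le_of_dvd (by norm_num) h4
    have h6 : 3 ≤ R.relIndex C := h3 ▸ hrel
    have h7 : R.relIndex C ≠ 3 := by intro h; rw [h] at h4; omega
    omega
  have : Nontrivial D := by
    rw [← Finite.one_lt_card_iff_nontrivial, hD3]; norm_num
  obtain ⟨d, hd⟩ := exists_ne (1 : D)
  refine ⟨d, fun h => hd (Subtype.ext h), ?_, fun x => ?_⟩
  · have h1 : (d : D) ^ 3 = 1 := by rw [← hD3]; exact pow_card_eq_one'
    have h2 : (d : D) ^ 9 = 1 := by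
      calc (d : D) ^ 9 = (d ^ 3) ^ 3 := by rw [← pow_mul]
        _ = 1 := by rw [h1, one_pow]
    have := congrArg (Subtype.val) h2
    simpa using this
  · have hx : x ∈ C := by rw [hCtop]; trivial
    rw [hC, Subgroup.mem_centralizer_iff] at hx
    exact hx d d.2

end

section
variable {A : Type u} [CommGroup A]

theorem comp_four (σ τ : A →* A) (hσ : ∀ x, σ (σ x) = x) (hτ : ∀ x, τ (τ x) = x) (hc : ∀ x, σ (τ x) = τ (σ x))
    (hfix : ∀ x, σ x = x → τ x = x → x = 1) (x : A) :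
    ∃ a c d : A, x ^ 4 = a ^ 2 * c * d ∧ (σ a = a ∧ τ a = a⁻¹) ∧ (σ c = c⁻¹ ∧ τ c = c) ∧ (σ d = d⁻¹ ∧ τ d = d⁻¹) := by
  have key : σ (x * σ x) = x * σ x := by rw [map_mul, hσ, mul_comm]
  have hb : σ (x * (σ x)⁻¹) = (x * (σ x)⁻¹)⁻¹ := by rw [map_mul, map_inv, hσ, mul_inv, inv_inv, mul_comm]
  have h4 : x ^ 4 = (x * σ x) ^ 2 * (x * (σ x)⁻¹) ^ 2 := by
    rw [← mul_pow, show x * σ x * (x * (σ x)⁻¹) = x ^ 2 by rw [mul_mul_mul_comm, mul_inv_cancel, mul_one, sq], ← pow_mul]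
  have ha : τ (x * σ x) = (x * σ x)⁻¹ := by
    have h1 : (x * σ x) * τ (x * σ x) = 1 := by
      apply hfix
      · rw [map_mul, hc, key]
      · rw [map_mul, hτ, mul_comm]
    exact (inv_eq_of_mul_eq_one_right h1).symm
  generalize x * (σ x)⁻¹ = b at hb h4
  generalize x * σ x = a at ha key h4
  refine ⟨a, b * τ b, b * (τ b)⁻¹, ?_, ⟨key, ha⟩, ⟨?_, ?_⟩, ?_, ?_⟩
  · rw [h4, mul_assoc]
    congr 1
    rw [mul_mul_mul_comm, mul_inv_cancel, mul_one, sq]
  · rw [map_mul, hc, hb, map_inv, mul_inv]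
  · rw [map_mul, hτ, mul_comm]
  · rw [map_mul, map_inv, hc, hb, map_inv, inv_inv, mul_inv, inv_inv]
  · rw [map_mul, map_inv, hτ, mul_inv, inv_inv, mul_comm]

theorem card_le_three {P : A → Prop} (hP : ∀ y y', P y → P y' → y ≠ 1 → y' = 1 ∨ y' = y ∨ y' = y ^ 2) (hall : ∀ x, P x)
    (h9 : Nat.card A = 9) : False := by
  have : Finite A := Nat.finite_of_card_ne_zero (by omega)
  have : Nontrivial A := by rw [← Finite.one_lt_card_iff_nontrivial, h9]; norm_num
  obtain ⟨y, hy⟩ := exists_ne (1 : A)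
  have hs : (Set.univ : Set A) ⊆ {1, y, y ^ 2} := by
    intro x _
    rcases hP y x (hall y) (hall x) hy with h | h | h <;> simp [h]
  have h1 : (Set.univ : Set A).ncard ≤ ({1, y, y ^ 2} : Set A).ncard := Set.ncard_le_ncard hs (Set.toFinite _)
  rw [Set.ncard_univ, h9] at h1
  have h2 : ({1, y, y ^ 2} : Set A).ncard ≤ 3 := by
    refine (Set.ncard_insert_le _ _).trans ?_
    have := Set.ncard_insert_le y {y ^ 2}
    rw [Set.ncard_singleton] at this
    omega
  omega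

/-- two of the three eigenspaces are not trivial -/
theorem two_of_three (h9 : Nat.card A = 9) (σ τ : A →* A) (hσ : ∀ x, σ (σ x) = x) (hτ : ∀ x, τ (τ x) = x)
    (hc : ∀ x, σ (τ x) = τ (σ x)) (hfix : ∀ x, σ x = x → τ x = x → x = 1)
    (hA : ∀ y y' : A, (σ y = y ∧ τ y = y⁻¹) → (σ y' = y' ∧ τ y' = y'⁻¹) → y ≠ 1 → y' = 1 ∨ y' = y ∨ y' = y ^ 2)
    (hC : ∀ y y' : A, (σ y = y⁻¹ ∧ τ y = y) → (σ y' = y'⁻¹ ∧ τ y' = y') → y ≠ 1 → y' = 1 ∨ y' = y ∨ y' = y ^ 2)
    (hD : ∀ y y' : A, (σ y = y⁻¹ ∧ τ y = y⁻¹) → (σ y' = y'⁻¹ ∧ τ y' = y'⁻¹) → y ≠ 1 → y' = 1 ∨ y' = y ∨ y' = y ^ 2) :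
    ∃ y z : A, y ≠ 1 ∧ z ≠ 1 ∧ ((((σ y = y ∧ τ y = y⁻¹) ∧ (σ z = z⁻¹ ∧ τ z = z)) ∨
      ((σ y = y ∧ τ y = y⁻¹) ∧ (σ z = z⁻¹ ∧ τ z = z⁻¹))) ∨ ((σ y = y⁻¹ ∧ τ y = y) ∧ (σ z = z⁻¹ ∧ τ z = z⁻¹))) := by
  by_contra hno
  have : Finite A := Nat.finite_of_card_ne_zero (by omega)
  have hpow : ∀ x : A, x ^ 28 = x := by
    intro x
    have h1 : x ^ 9 = 1 := by rw [← h9]; exact pow_card_eq_one'
    calc x ^ 28 = (x ^ 9) ^ 3 * x := by rw [← pow_mul, ← pow_succ]
      _ = x := by rw [h1, one_pow, one_mul]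
  have h47 : ∀ x w : A, x ^ 4 = w → x = w ^ 7 := by
    intro x w h; rw [← h, ← pow_mul, hpow]
  by_cases p1 : ∃ y, y ≠ 1 ∧ (σ y = y ∧ τ y = y⁻¹)
  · obtain ⟨y, hy, hy'⟩ := p1
    refine card_le_three hA (fun x => ?_) h9
    obtain ⟨a, c, d, hx, ha, hc', hd⟩ := comp_four σ τ hσ hτ hc hfix x
    have hc1 : c = 1 := by
      by_contra h; exact hno ⟨y, c, hy, h, Or.inl (Or.inl ⟨hy', hc'⟩)⟩
    have hd1 : d = 1 := by
      by_contra h; exact hno ⟨y, d, hy, h, Or.inl (Or.inr ⟨hy', hd⟩)⟩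
    rw [hc1, hd1, mul_one, mul_one] at hx
    rw [h47 x _ hx, ← pow_mul, map_pow, map_pow, ha.1, ha.2, inv_pow]
    exact ⟨rfl, rfl⟩
  · have ha1 : ∀ a, (σ a = a ∧ τ a = a⁻¹) → a = 1 := by
      intro a ha; by_contra h; exact p1 ⟨a, h, ha⟩
    by_cases p2 : ∃ y, y ≠ 1 ∧ (σ y = y⁻¹ ∧ τ y = y)
    · obtain ⟨y, hy, hy'⟩ := p2
      refine card_le_three hC (fun x => ?_) h9
      obtain ⟨a, c, d, hx, ha, hc', hd⟩ := comp_four σ τ hσ hτ hc hfix x
      have hd1 : d = 1 := by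
        by_contra h; exact hno ⟨y, d, hy, h, Or.inr ⟨hy', hd⟩⟩
      rw [ha1 a ha, hd1, one_pow, one_mul, mul_one] at hx
      rw [h47 x _ hx, map_pow, map_pow, hc'.1, hc'.2, inv_pow]
      exact ⟨rfl, rfl⟩
    · refine card_le_three hD (fun x => ?_) h9
      obtain ⟨a, c, d, hx, ha, hc', hd⟩ := comp_four σ τ hσ hτ hc hfix x
      have hc1 : c = 1 := by
        by_contra h; exact p2 ⟨c, h, hc'⟩
      rw [ha1 a ha, hc1, one_pow, one_mul, one_mul] at hx
      rw [h47 x _ hx, map_pow, map_pow, hd.1, hd.2, inv_pow]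
      exact ⟨rfl, rfl⟩

end

section
variable {H : Type u} [Group H] [Finite H]

/-- commuting elements of order three generate a group of order nine -/
theorem nine_dvd {y z : H} (hyz : y * z = z * y) (hy : y ^ 3 = 1) (hz : z ^ 3 = 1) (hz1 : z ≠ 1) (h1 : y ≠ 1)
    (h2 : z ≠ y) (h3 : z ≠ y ^ 2) : 9 ∣ Nat.card H := by
  have : Fact (Nat.Prime 3) := ⟨by norm_num⟩
  have hoy : orderOf y = 3 := orderOf_eq_prime hy h1
  have hoz : orderOf z = 3 := orderOf_eq_prime hz hz1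
  have hdis : Disjoint (Subgroup.zpowers y) (Subgroup.zpowers z) := by
    rw [disjoint_iff, Subgroup.eq_bot_iff_forall]
    rintro x ⟨hx, hx'⟩
    by_contra hne
    have h4 : Nat.card (Subgroup.zpowers z) = 3 := by rw [Nat.card_zpowers, hoz]
    have hzx : Subgroup.zpowers x = Subgroup.zpowers z := by
      refine Subgroup.eq_of_le_of_card_ge (Subgroup.zpowers_le.2 hx') ?_
      have hx3 : x ^ 3 = 1 := by
        obtain ⟨k, rfl⟩ := hx'
        show (z ^ k) ^ 3 = 1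
        rw [← zpow_natCast, ← zpow_mul, mul_comm, zpow_mul, zpow_natCast, hz, one_zpow]
      rw [h4, Nat.card_zpowers, orderOf_eq_prime hx3 hne]
    have hzy : z ∈ Subgroup.zpowers y := by
      have : z ∈ Subgroup.zpowers x := by rw [hzx]; exact Subgroup.mem_zpowers z
      exact (Subgroup.zpowers_le.2 hx) this
    classical
    obtain ⟨k, hk, hk'⟩ := Finset.mem_image.1 (mem_zpowers_iff_mem_range_orderOf.1 hzy)
    rw [hoy, Finset.mem_range] at hk
    interval_cases k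
    · exact hz1 (by rw [← hk']; simp)
    · exact h2 (by rw [← hk']; simp)
    · exact h3 (by rw [← hk'])
  let f : Subgroup.zpowers y × Subgroup.zpowers z →* H :=
    MonoidHom.noncommCoprod (Subgroup.subtype _) (Subgroup.subtype _) (by
      rintro ⟨a, k, rfl⟩ ⟨b, l, rfl⟩
      show y ^ k * z ^ l = z ^ l * y ^ k
      exact ((show Commute y z from hyz).zpow_zpow k l).eq)
  have hf : Function.Injective f := by
    rw [MonoidHom.noncommCoprod_injective]
    refine ⟨Subtype.val_injective, Subtype.val_injective, ?_⟩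
    rw [Subgroup.range_subtype, Subgroup.range_subtype]
    exact hdis
  have h9 : Nat.card (Subgroup.zpowers y × Subgroup.zpowers z) = 9 := by
    rw [Nat.card_prod, Nat.card_zpowers, Nat.card_zpowers, hoy, hoz]
  rw [← h9]
  exact Subgroup.card_dvd_of_injective f hf

end

end Cfsg.Agent.H568.P4
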