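import Cfsg.Agent.H776.P4.Stmts
import Cfsg.Agent.H568.P4.TwoMask

/-!
# S5210, `q = 2`, piece (2U): the model of `V` (helper568)
-/

set_option autoImplicit false

namespace Cfsg.Agent.H568.P4

open Cfsg Cfsg.FusionSystem Cfsg.Agent.H776.P4
open Cfsg.Agent.H756.PU (HypK)

universe u

variable {K : Type u} [Field K] [StarRing K]

/-- the field with four elements -/
structure Four (K : Type u) [Field K] [StarRing K] : Prop where
  two : (2 : K) = 0
  star_sq : ∀ x : K, star x = x ^ 2
  four : ∀ x : K, x ^ 4 = x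
  fin : Finite K
  card : Nat.card K = 4

theorem Four.of_hyp {p n : ℕ} (h : HypK K p n) (h2 : p ^ n = 2) : Four K := by
  have hp : p = 2 := by
    have h1 : p ∣ 2 := by
      rw [← h2]; exact dvd_pow_self p (by have := h.hn; omega)
    exact (Nat.prime_dvd_prime_iff_eq h.pp Nat.prime_two).1 h1
  subst hp
  have := h.char
  have hf := h.fin
  have hc : Nat.card K = 4 := by rw [h.card, h2]; norm_num
  refine ⟨?_, ?_, ?_, hf, hc⟩
  · exact_mod_cast CharP.cast_eq_zero K 2
  · intro x; rw [h.star_eq, h2]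
  · intro x
    have := Fintype.ofFinite K
    have h4 := FiniteField.pow_card x
    rwa [← Nat.card_eq_fintype_card, hc] at h4

def bk (K : Type u) [Field K] (b : Bool) : K := bif b then 1 else 0

omit [StarRing K] in
@[simp] theorem bk_true : bk K true = 1 := rfl

omit [StarRing K] in
@[simp] theorem bk_false : bk K false = 0 := rfl

theorem star_bk (b : Bool) : star (bk K b) = bk K b := by cases b <;> simp

omit [StarRing K] in
theorem bk_xor (h : (2 : K) = 0) (a b : Bool) : bk K (xor a b) = bk K a + bk K b := by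
  cases a <;> cases b <;> simp
  linear_combination -h

/-- the vector of a mask -/
def vec (ρ ω : K) (x : Mk) : PG K where
  r := 0
  a := bk K x.2.1 + bk K x.2.2.1 + bk K x.2.2.2
  b := bk K x.2.1 * ρ + bk K x.2.2.1 * (ρ * ω) + bk K x.2.2.2 * (ρ * ω ^ 2)
  c := bk K x.1 + bk K x.2.1 + bk K x.2.2.1 + bk K x.2.2.2
  ha := by simp only [star_add, star_bk]
  hc := by simp only [star_add, star_bk]

def vV (ρ ω : K) (x : Mk) : PV K := ⟨vec ρ ω x, rfl⟩

theorem vV_xa (h : Four K) (ρ ω : K) (x y : Mk) : vV ρ ω (xa x y) = vV ρ ω x * vV ρ ω y := by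
  apply Subtype.ext
  show vec ρ ω (xa x y) = vec ρ ω x * vec ρ ω y
  ext
  · simp [vec]
  · simp only [PG.mul_a, vec, xa, bk_xor h.two]; simp; ring
  · simp only [PG.mul_b, vec, xa, bk_xor h.two]; simp; ring
  · simp only [PG.mul_c, vec, xa, bk_xor h.two]; ring

theorem vV_z0 (ρ ω : K) : vV ρ ω z0 = 1 := by
  apply Subtype.ext
  show vec ρ ω z0 = 1
  ext <;> simp [vec, z0]

/-- `u_r` -/
def uu (r : K) : PG K := ⟨r, 0, 0, 0, by simp, by simp⟩

theorem uu_add (r s : K) : uu (r + s) = uu r * uu s := by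
  ext <;> simp [uu, PG.mul_a, PG.mul_b]

instance pvNormal : (PV K).Normal := ⟨by
  intro n hn g
  show (g * n * g⁻¹).r = 0
  have h : n.r = 0 := hn
  simp [h]⟩

/-- conjugation by `u_r` on `V` -/
def au (r : K) : MulAut (PV K) := MulAut.conjNormal (uu r)

theorem au_mem (r : K) : au r ∈ autInducedBy ⊤ (PV K) :=
  Subgroup.subset_closure ⟨uu r, trivial, fun _ => rfl⟩

theorem au_add (r s : K) : au (r + s) = au r * au s := by
  unfold au; rw [uu_add, map_mul]

theorem au_zero : au (0 : K) = 1 := by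
  have h : uu (0 : K) = 1 := by ext <;> rfl
  unfold au; rw [h, map_one]

theorem au_coe (r : K) (v : PV K) : ((au r v : PV K) : PG K) = uu r * (v : PG K) * (uu r)⁻¹ := rfl

theorem au_r (r : K) (v : PV K) : ((au r v : PV K) : PG K).r = 0 := (au r v).2

theorem au_c (r : K) (v : PV K) : ((au r v : PV K) : PG K).c = (v : PG K).c := by
  rw [au_coe]; simp [uu]

theorem au_b (r : K) (v : PV K) : ((au r v : PV K) : PG K).b = (v : PG K).b + r * (v : PG K).c := by
  rw [au_coe]
  have h : (v : PG K).r = 0 := v.2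
  simp [uu, PG.mul_b, PG.inv_b]

theorem au_a (r : K) (v : PV K) : ((au r v : PV K) : PG K).a =
    (v : PG K).a + r * star (v : PG K).b + star r * (v : PG K).b + r * star r * (v : PG K).c := by
  rw [au_coe]
  have h : (v : PG K).r = 0 := v.2
  simp [uu, PG.mul_a, PG.inv_a, PG.inv_b, h]

theorem au_s1 (h : Four K) {ρ ω : K} (hρ : ρ ^ 3 = 1) (hω : ω ^ 2 + ω + 1 = 0) (x : Mk) :
    au ρ (vV ρ ω x) = vV ρ ω (s1 x) := by
  have h2 := h.two
  apply Subtype.ext
  ext
  · rw [au_r]; rfl
  · rw [au_a]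
    show (vec ρ ω x).a + ρ * star (vec ρ ω x).b + star ρ * (vec ρ ω x).b + ρ * star ρ * (vec ρ ω x).c = (vec ρ ω (s1 x)).a
    simp only [vec, s1, star_add, star_mul', star_bk, star_pow, h.star_sq ρ, h.star_sq ω]
    grind
  · rw [au_b]
    show (vec ρ ω x).b + ρ * (vec ρ ω x).c = (vec ρ ω (s1 x)).b
    simp only [vec, s1]
    grind
  · rw [au_c]
    show (vec ρ ω x).c = (vec ρ ω (s1 x)).c
    simp only [vec, s1]; ring

theorem au_s2 (h : Four K) {ρ ω : K} (hρ : ρ ^ 3 = 1) (hω : ω ^ 2 + ω + 1 = 0) (x : Mk) :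
    au (ρ * ω) (vV ρ ω x) = vV ρ ω (s2 x) := by
  have h2 := h.two
  apply Subtype.ext
  ext
  · rw [au_r]; rfl
  · rw [au_a]
    show (vec ρ ω x).a + (ρ * ω) * star (vec ρ ω x).b + star (ρ * ω) * (vec ρ ω x).b +
      (ρ * ω) * star (ρ * ω) * (vec ρ ω x).c = (vec ρ ω (s2 x)).a
    simp only [vec, s2, star_add, star_mul', star_bk, star_pow, h.star_sq ρ, h.star_sq ω]
    grind
  · rw [au_b]
    show (vec ρ ω x).b + (ρ * ω) * (vec ρ ω x).c = (vec ρ ω (s2 x)).b
    simp only [vec, s2]
    grind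
  · rw [au_c]
    show (vec ρ ω x).c = (vec ρ ω (s2 x)).c
    simp only [vec, s2]; ring

omit [StarRing K] in
theorem cases_four (h4 : ∀ x : K, x ^ 4 = x) {ω : K} (hω : ω ^ 2 + ω + 1 = 0) (h2 : (2 : K) = 0) (x : K) :
    x = 0 ∨ x = 1 ∨ x = ω ∨ x = ω ^ 2 := by
  have h : x * ((x - 1) * ((x - ω) * (x - ω ^ 2))) = 0 := by
    have := h4 x
    grind
  rcases mul_eq_zero.1 h with h | h
  · exact Or.inl h
  rcases mul_eq_zero.1 h with h | h
  · exact Or.inr (Or.inl (sub_eq_zero.1 h))
  rcases mul_eq_zero.1 h with h | h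
  · exact Or.inr (Or.inr (Or.inl (sub_eq_zero.1 h)))
  · exact Or.inr (Or.inr (Or.inr (sub_eq_zero.1 h)))

theorem fix_cases (h : Four K) {x : K} (hx : star x = x) : x = 0 ∨ x = 1 := by
  rw [h.star_sq] at hx
  have h1 : x * (x - 1) = 0 := by linear_combination hx
  rcases mul_eq_zero.1 h1 with h1 | h1
  · exact Or.inl h1
  · exact Or.inr (sub_eq_zero.1 h1)

theorem vV_surj (h : Four K) {ρ ω : K} (hρ : ρ ^ 3 = 1) (hω : ω ^ 2 + ω + 1 = 0) (v : PV K) :
    ∃ x, vV ρ ω x = v := by
  have h2 := h.two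
  have hρ0 : ρ ≠ 0 := by rintro rfl; norm_num at hρ
  obtain ⟨⟨r, a, b, c, ha, hc⟩, hv⟩ := v
  have hr : r = 0 := hv
  subst hr
  have hb : ∃ β, b = ρ * β := ⟨ρ⁻¹ * b, by field_simp⟩
  obtain ⟨β, rfl⟩ := hb
  have key : ∀ x : Mk, bk K x.2.1 + bk K x.2.2.1 + bk K x.2.2.2 = a →
      bk K x.2.1 + bk K x.2.2.1 * ω + bk K x.2.2.2 * ω ^ 2 = β →
      bk K x.1 + bk K x.2.1 + bk K x.2.2.1 + bk K x.2.2.2 = c → ∃ x, vV ρ ω x = (⟨⟨0, a, ρ * β, c, ha, hc⟩, hv⟩ : PV K) := by
    intro x h1 h3 h4
    refine ⟨x, Subtype.ext ?_⟩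
    show vec ρ ω x = _
    ext
    · rfl
    · exact h1
    · show bk K x.2.1 * ρ + bk K x.2.2.1 * (ρ * ω) + bk K x.2.2.2 * (ρ * ω ^ 2) = ρ * β
      rw [← h3]; ring
    · exact h4
  have hω2 : ω ^ 2 = ω + 1 := by linear_combination hω - (ω + 1) * h2
  rcases fix_cases h ha with rfl | rfl <;> rcases fix_cases h hc with rfl | rfl <;>
    rcases cases_four h.four hω h2 β with hβ | hβ | hβ | hβ <;> subst hβ
  · exact key (false, false, false, false) (by simp) (by simp) (by simp)
  · exact key (false, false, true, true) (by simp; linear_combination h2) (by simp; grind) (by simp; grind)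
  · exact key (false, true, false, true) (by simp; linear_combination h2) (by simp; grind) (by simp; grind)
  · exact key (false, true, true, false) (by simp; linear_combination h2) (by simp; grind) (by simp; grind)
  · exact key (true, false, false, false) (by simp) (by simp) (by simp)
  · exact key (true, false, true, true) (by simp; linear_combination h2) (by simp; grind) (by simp; grind)
  · exact key (true, true, false, true) (by simp; linear_combination h2) (by simp; grind) (by simp; grind)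
  · exact key (true, true, true, false) (by simp; linear_combination h2) (by simp; grind) (by simp; grind)
  · exact key (true, true, true, true) (by simp; grind) (by simp; grind) (by simp; grind)
  · exact key (true, true, false, false) (by simp) (by simp) (by simp; grind)
  · exact key (true, false, true, false) (by simp) (by simp) (by simp; grind)
  · exact key (true, false, false, true) (by simp) (by simp) (by simp; grind)
  · exact key (false, true, true, true) (by simp; grind) (by simp; grind) (by simp; grind)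
  · exact key (false, true, false, false) (by simp) (by simp) (by simp)
  · exact key (false, false, true, false) (by simp) (by simp) (by simp)
  · exact key (false, false, false, true) (by simp) (by simp) (by simp)

theorem vV_ker (h : Four K) {ρ ω : K} (hρ : ρ ^ 3 = 1) (hω : ω ^ 2 + ω + 1 = 0) {x : Mk} (hx : vV ρ ω x = 1) : x = z0 := by
  have h2 := h.two
  have hρ0 : ρ ≠ 0 := by rintro rfl; norm_num at hρ
  have h1 : vec ρ ω x = 1 := congrArg Subtype.val hx
  have hc := congrArg PG.c h1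
  have ha := congrArg PG.a h1
  have hb := congrArg PG.b h1
  simp only [vec, PG.one_a, PG.one_b, PG.one_c] at ha hb hc
  have hb' : bk K x.2.1 + bk K x.2.2.1 * ω + bk K x.2.2.2 * ω ^ 2 = 0 := by
    have : ρ * (bk K x.2.1 + bk K x.2.2.1 * ω + bk K x.2.2.2 * ω ^ 2) = 0 := by rw [← hb]; ring
    exact (mul_eq_zero.1 this).resolve_left hρ0
  obtain ⟨a, b, c, d⟩ := x
  have h10 : (1 : K) ≠ 0 := one_ne_zero
  cases a <;> cases b <;> cases c <;> cases d <;> simp at ha hb' hc <;> first | rfl | (exfalso; grind)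

theorem vV_inj (h : Four K) {ρ ω : K} (hρ : ρ ^ 3 = 1) (hω : ω ^ 2 + ω + 1 = 0) {x y : Mk} (hxy : vV ρ ω x = vV ρ ω y) :
    x = y := by
  have h1 : vV ρ ω (xa x y) = 1 := by
    rw [vV_xa h, hxy, ← vV_xa h]
    have : xa y y = z0 := by
      obtain ⟨a, b, c, d⟩ := y
      cases a <;> cases b <;> cases c <;> cases d <;> rfl
    rw [this, vV_z0]
  have h2 := vV_ker h hρ hω h1
  obtain ⟨a, b, c, d⟩ := x
  obtain ⟨a', b', c', d'⟩ := y
  revert h2
  cases a <;> cases b <;> cases c <;> cases d <;> cases a' <;> cases b' <;> cases c' <;> cases d' <;> decide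

end Cfsg.Agent.H568.P4
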