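import Cfsg.Agent.H568.P4.TwoRep
import Cfsg.Agent.H568.P4.TwoGrp

/-!
# S5210, `q = 2`, piece (2U): automorphisms of `PG K` (helper568)
-/

set_option autoImplicit false

namespace Cfsg.Agent.H568.P4

open Cfsg Cfsg.FusionSystem Cfsg.Agent.H776.P4
open Cfsg.Agent.H756.PU (HypK)

universe u

variable {K : Type u} [Field K] [StarRing K]

theorem isRP_mul {θ θ' : MulAut (PG K)} {Q : Subgroup (PG K)} {t t' : MulAut Q} (h : IsRP θ t) (h' : IsRP θ' t') :
    IsRP (θ * θ') (t * t') := by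
  intro e
  rw [MulAut.mul_apply, MulAut.mul_apply, h, h']

theorem isRP_one {Q : Subgroup (PG K)} : IsRP (1 : MulAut (PG K)) (1 : MulAut Q) := fun _ => rfl

theorem isRP_inv {θ : MulAut (PG K)} {Q : Subgroup (PG K)} {t : MulAut Q} (h : IsRP θ t) : IsRP θ⁻¹ t⁻¹ := by
  intro e
  have h1 := h (t⁻¹ e)
  rw [MulAut.apply_inv_self] at h1
  rw [h1, MulAut.inv_apply_self]

/-- restriction to `V` -/
theorem res_V (θ : MulAut (PG K)) (hθ : ∀ g : PG K, (θ g).r = 0 ↔ g.r = 0) : ∃ t : MulAut (PV K), IsRP θ t := by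
  refine ⟨⟨⟨fun e => ⟨θ e, (hθ e).2 e.2⟩, fun e => ⟨θ.symm e, ?_⟩, ?_, ?_⟩, ?_⟩, ?_⟩
  · show (θ.symm e).r = 0
    rw [← hθ, MulEquiv.apply_symm_apply]
    exact e.2
  · intro e; exact Subtype.ext (MulEquiv.symm_apply_apply _ _)
  · intro e; exact Subtype.ext (MulEquiv.apply_symm_apply _ _)
  · intro e f; exact Subtype.ext (map_mul θ _ _)
  · intro e; rfl

/-- `t u_r = u_{r'} t` -/
theorem conj_au {θ : MulAut (PG K)} {t : MulAut (PV K)} (h : IsRP θ t) {r r' : K} (hr : θ (uu r) = uu r') :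
    t * au r = au r' * t := by
  ext1 v
  apply Subtype.ext
  rw [MulAut.mul_apply, MulAut.mul_apply, h, au_coe, au_coe, map_mul, map_mul, map_inv, hr, h]

theorem isRP_au (r : K) : IsRP (MulAut.conj (uu r)) (au r) := fun _ => rfl

/-- `(r, a, b, c) ↦ (r, a + c, b, c)` -/
def thG (K : Type u) [Field K] [StarRing K] : MulAut (PG K) where
  toFun g := ⟨g.r, g.a + g.c, g.b, g.c, by rw [star_add, g.ha, g.hc], g.hc⟩
  invFun g := ⟨g.r, g.a - g.c, g.b, g.c, by rw [star_sub, g.ha, g.hc], g.hc⟩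
  left_inv g := by ext <;> simp
  right_inv g := by ext <;> simp
  map_mul' x y := by
    ext
    · rfl
    · simp only [PG.mul_a, PG.mul_c]; ring
    · rfl
    · rfl

theorem thG_uu (r : K) : thG K (uu r) = uu r := by
  ext
  · rfl
  · show (0 : K) + 0 = 0; simp
  · rfl
  · rfl

/-- `(r, a, b, c) ↦ (s τ r, s s̄ τ a, s τ b, τ c)` -/
def torG (s : K) (hs : s ≠ 0) (τ : K ≃+* K) (hτ : ∀ x, τ (star x) = star (τ x)) : MulAut (PG K) where
  toFun g := ⟨s * τ g.r, s * star s * τ g.a, s * τ g.b, τ g.c,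
    by rw [star_mul', star_mul', star_star, ← hτ, g.ha]; ring, by rw [← hτ, g.hc]⟩
  invFun g := ⟨τ.symm (s⁻¹ * g.r), τ.symm ((s * star s)⁻¹ * g.a), τ.symm (s⁻¹ * g.b), τ.symm g.c,
    by
      apply τ.injective
      rw [hτ, τ.apply_symm_apply, star_mul', star_inv₀, star_mul', star_star, g.ha, mul_comm (star s)],
    by
      apply τ.injective
      rw [hτ, τ.apply_symm_apply, g.hc]⟩
  left_inv g := by
    have hs' : star s ≠ 0 := by simpa using hs
    ext
    · show τ.symm (s⁻¹ * (s * τ g.r)) = g.r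
      rw [inv_mul_cancel_left₀ hs, τ.symm_apply_apply]
    · show τ.symm ((s * star s)⁻¹ * (s * star s * τ g.a)) = g.a
      rw [inv_mul_cancel_left₀ (mul_ne_zero hs hs'), τ.symm_apply_apply]
    · show τ.symm (s⁻¹ * (s * τ g.b)) = g.b
      rw [inv_mul_cancel_left₀ hs, τ.symm_apply_apply]
    · show τ.symm (τ g.c) = g.c
      rw [τ.symm_apply_apply]
  right_inv g := by
    have hs' : star s ≠ 0 := by simpa using hs
    ext
    · show s * τ (τ.symm (s⁻¹ * g.r)) = g.r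
      rw [τ.apply_symm_apply, mul_inv_cancel_left₀ hs]
    · show s * star s * τ (τ.symm ((s * star s)⁻¹ * g.a)) = g.a
      rw [τ.apply_symm_apply, mul_inv_cancel_left₀ (mul_ne_zero hs hs')]
    · show s * τ (τ.symm (s⁻¹ * g.b)) = g.b
      rw [τ.apply_symm_apply, mul_inv_cancel_left₀ hs]
    · show τ (τ.symm g.c) = g.c
      rw [τ.apply_symm_apply]
  map_mul' x y := by
    ext
    · show s * τ (x.r + y.r) = s * τ x.r + s * τ y.r
      rw [map_add, mul_add]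
    · show s * star s * τ (x.a + y.a + x.r * star y.b + star x.r * y.b + x.r * star x.r * y.c) =
        s * star s * τ x.a + s * star s * τ y.a + (s * τ x.r) * star (s * τ y.b) + star (s * τ x.r) * (s * τ y.b) +
          (s * τ x.r) * star (s * τ x.r) * τ y.c
      simp only [map_add, map_mul, star_mul', hτ]
      ring
    · show s * τ (x.b + y.b + x.r * y.c) = s * τ x.b + s * τ y.b + (s * τ x.r) * τ y.c
      simp only [map_add, map_mul]
      ring
    · show τ (x.c + y.c) = τ x.c + τ y.c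
      rw [map_add]

theorem torG_uu (s : K) (hs : s ≠ 0) (τ : K ≃+* K) (hτ : ∀ x, τ (star x) = star (τ x)) (r : K) :
    torG s hs τ hτ (uu r) = uu (s * τ r) := by
  ext
  · rfl
  · show s * star s * τ 0 = 0; simp
  · show s * τ 0 = 0; simp
  · show τ 0 = 0; simp

omit [StarRing K] in
theorem map_bk (τ : K ≃+* K) (b : Bool) : τ (bk K b) = bk K b := by cases b <;> simp

/-- moving the coordinates -/
theorem move (h : Four K) {ρ ω ρ' ω' : K} (hρ : ρ ^ 3 = 1) (hω : ω ^ 2 + ω + 1 = 0) (hρ' : ρ' ^ 3 = 1)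
    (hω' : ω' ^ 2 + ω' + 1 = 0) : ∃ (θ : MulAut (PG K)) (t : MulAut (PV K)), IsRP θ t ∧
      (∀ r', ∃ r, t * au r * t⁻¹ = au r') ∧ ∀ x, t (vV ρ ω x) = vV ρ' ω' x := by
  have hρ0 : ρ ≠ 0 := by rintro rfl; norm_num at hρ
  have hρ0' : ρ' ≠ 0 := by rintro rfl; norm_num at hρ'
  have hτ : ∃ τ : K ≃+* K, (∀ x, τ (star x) = star (τ x)) ∧ τ ω = ω' := by
    rcases cases_four h.four hω h.two ω' with h1 | h1 | h1 | h1
    · rw [h1] at hω'; norm_num at hω'
    · rw [h1] at hω'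
      exfalso
      have h2 := h.two
      have : (1 : K) = 0 := by linear_combination hω' - h2
      exact one_ne_zero this
    · exact ⟨RingEquiv.refl K, fun _ => rfl, h1.symm⟩
    · exact ⟨starRingAut, fun _ => rfl, by rw [starRingAut_apply, h.star_sq, h1]⟩
  obtain ⟨τ, hτ, hτω⟩ := hτ
  have hτρ : τ ρ ≠ 0 := by simpa using hρ0
  have hτρ3 : (τ ρ) ^ 3 = 1 := by rw [← map_pow, hρ, map_one]
  set s : K := ρ' * (τ ρ)⁻¹ with hs
  have hs0 : s ≠ 0 := mul_ne_zero hρ0' (inv_ne_zero hτρ)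
  have hsρ : s * τ ρ = ρ' := by rw [hs, inv_mul_cancel_right₀ hτρ]
  have hss : s * star s = 1 := by
    rw [h.star_sq, ← pow_succ', hs, mul_pow, inv_pow, hρ', hτρ3, inv_one, mul_one]
  obtain ⟨t, ht⟩ := res_V (torG s hs0 τ hτ) (by
    intro g
    show s * τ g.r = 0 ↔ g.r = 0
    simp [hs0])
  refine ⟨torG s hs0 τ hτ, t, ht, fun r' => ⟨τ.symm (s⁻¹ * r'), ?_⟩, fun x => ?_⟩
  · have h1 : torG s hs0 τ hτ (uu (τ.symm (s⁻¹ * r'))) = uu r' := by
      rw [torG_uu, τ.apply_symm_apply, mul_inv_cancel_left₀ hs0]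
    rw [conj_au ht h1, mul_inv_cancel_right]
  · apply Subtype.ext
    rw [ht]
    show torG s hs0 τ hτ (vec ρ ω x) = vec ρ' ω' x
    ext
    · show s * τ 0 = 0; simp
    · show s * star s * τ (bk K x.2.1 + bk K x.2.2.1 + bk K x.2.2.2) = _
      rw [hss, one_mul]
      simp only [map_add, map_bk]
      rfl
    · show s * τ (bk K x.2.1 * ρ + bk K x.2.2.1 * (ρ * ω) + bk K x.2.2.2 * (ρ * ω ^ 2)) =
        bk K x.2.1 * ρ' + bk K x.2.2.1 * (ρ' * ω') + bk K x.2.2.2 * (ρ' * ω' ^ 2)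
      simp only [map_add, map_mul, map_pow, map_bk, hτω, ← hsρ]
      ring
    · show τ (bk K x.1 + bk K x.2.1 + bk K x.2.2.1 + bk K x.2.2.2) = _
      simp only [map_add, map_bk]
      rfl

/-- the restriction of `thG` -/
theorem th_act (h : Four K) {ρ ω : K} (hω : ω ^ 2 + ω + 1 = 0) : ∃ t : MulAut (PV K), IsRP (thG K) t ∧
    (∀ r, t * au r = au r * t) ∧ Acts ρ ω t th := by
  have h2 := h.two
  obtain ⟨t, ht⟩ := res_V (thG K) (fun g => Iff.rfl)
  refine ⟨t, ht, fun r => conj_au ht (thG_uu r), fun x => ?_⟩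
  apply Subtype.ext
  rw [ht]
  show thG K (vec ρ ω x) = vec ρ ω (th x)
  have h1 : ∀ b : Bool, bk K (!b) = bk K b + 1 := by
    intro b; cases b <;> simp
    linear_combination -h2
  have hp : bk K (par x) = bk K x.1 + bk K x.2.1 + bk K x.2.2.1 + bk K x.2.2.2 := by
    rw [par, bk_xor h2, bk_xor h2, bk_xor h2]; ring
  have h3 : vec ρ ω (th x) = ⟨0, bk K x.2.1 + bk K x.2.2.1 + bk K x.2.2.2 + bk K (par x),
      bk K x.2.1 * ρ + bk K x.2.2.1 * (ρ * ω) + bk K x.2.2.2 * (ρ * ω ^ 2),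
      bk K x.1 + bk K x.2.1 + bk K x.2.2.1 + bk K x.2.2.2, by simp only [star_add, star_bk], by simp only [star_add, star_bk]⟩ := by
    rw [th]
    cases hpx : par x
    · ext <;> simp [vec]
    · ext
      · rfl
      · simp only [cond_true, vec, h1, bk_true]; linear_combination h2
      · simp only [cond_true, vec, h1]; linear_combination ρ * hω
      · simp only [cond_true, vec, h1]; linear_combination 2 * h2
  rw [h3]
  ext
  · rfl
  · show bk K x.2.1 + bk K x.2.2.1 + bk K x.2.2.2 + (bk K x.1 + bk K x.2.1 + bk K x.2.2.1 + bk K x.2.2.2) =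
      bk K x.2.1 + bk K x.2.2.1 + bk K x.2.2.2 + bk K (par x)
    rw [hp]
  · rfl
  · rfl

theorem transport (h : Four K) {ρ ω : K} (hρ : ρ ^ 3 = 1) (hω : ω ^ 2 + ω + 1 = 0) {y z : MulAut (PV K)} (hy : EE ρ ω y)
    (hy9 : y ^ 9 = 1) (hz : FF ρ ω z) (hz9 : z ^ 9 = 1) (hc : y * z = z * y) (hy1 : y ≠ 1) (hz1 : z ≠ 1) :
    ∃ (θ : MulAut (PG K)) (t : MulAut (PV K)), IsRP θ t ∧ (∀ r, t * au r = au r * t) ∧
      Acts ρ ω (t * y * t⁻¹) Y0 ∧ Acts ρ ω (t * z * t⁻¹) W0 := by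
  obtain ⟨a, ha, hA⟩ := (EE_acts h hρ hω hy hy9).resolve_left hy1
  obtain ⟨b, hb, hB⟩ := (FF_acts h hρ hω hz hz9).resolve_left hz1
  have hAB := hA.mul hB
  rw [hc] at hAB
  obtain ⟨i, j, k, hijk⟩ := finTr a ha b hb (fun x _ => hAB.eq_of h hρ hω (hB.mul hA) x)
  have key : ∃ (θ : MulAut (PG K)) (t : MulAut (PV K)), IsRP θ t ∧ (∀ r, t * au r = au r * t) ∧ Acts ρ ω t (tr i j k) := by
    have hcomm : ∀ s r : K, au s * au r = au r * au s := by
      intro s r; rw [← au_add, ← au_add, add_comm]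
    have h1 : ∃ (θ : MulAut (PG K)) (t : MulAut (PV K)), IsRP θ t ∧ (∀ r, t * au r = au r * t) ∧
        Acts ρ ω t (fun x => bif i then s1 x else x) := by
      cases i
      · exact ⟨1, 1, isRP_one, fun r => by rw [one_mul, mul_one], Acts.one⟩
      · exact ⟨_, _, isRP_au ρ, hcomm ρ, acts_u1 h hρ hω⟩
    obtain ⟨θ1, t1, hr1, hc1, ha1⟩ := h1
    have h2 : ∃ (θ : MulAut (PG K)) (t : MulAut (PV K)), IsRP θ t ∧ (∀ r, t * au r = au r * t) ∧
        Acts ρ ω t (fun x => bif j then s2 x else x) := by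
      cases j
      · exact ⟨1, 1, isRP_one, fun r => by rw [one_mul, mul_one], Acts.one⟩
      · exact ⟨_, _, isRP_au _, hcomm _, acts_u2 h hρ hω⟩
    obtain ⟨θ2, t2, hr2, hc2, ha2⟩ := h2
    have h3 : ∃ (θ : MulAut (PG K)) (t : MulAut (PV K)), IsRP θ t ∧ (∀ r, t * au r = au r * t) ∧
        Acts ρ ω t (fun x => bif k then th x else x) := by
      cases k
      · exact ⟨1, 1, isRP_one, fun r => by rw [one_mul, mul_one], Acts.one⟩
      · obtain ⟨t, h4, h5, h6⟩ := th_act h (ρ := ρ) hω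
        exact ⟨_, t, h4, h5, h6⟩
    obtain ⟨θ3, t3, hr3, hc3, ha3⟩ := h3
    refine ⟨_, t3 * (t2 * t1), isRP_mul hr3 (isRP_mul hr2 hr1), fun r => ?_, ?_⟩
    · rw [mul_assoc, mul_assoc, hc1, ← mul_assoc t2, hc2, mul_assoc, ← mul_assoc, hc3, mul_assoc]
    · intro x
      rw [(ha3.mul (ha2.mul ha1)) x]
      unfold tr
      cases k <;> rfl
  obtain ⟨θ, t, hr, hcm, hact⟩ := key
  refine ⟨θ, t, hr, hcm, fun x => ?_, fun x => ?_⟩
  · obtain ⟨x', rfl⟩ := tr_surj i j k x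
    rw [← hact x', MulAut.mul_apply, MulAut.mul_apply, MulAut.inv_apply_self, hA, hact, (hijk x').1]
  · obtain ⟨x', rfl⟩ := tr_surj i j k x
    rw [← hact x', MulAut.mul_apply, MulAut.mul_apply, MulAut.inv_apply_self, hB, hact, (hijk x').2]

end Cfsg.Agent.H568.P4
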