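import Cfsg.Agent.H568.P4.TwoMove
import Cfsg.Agent.H568.P4.TwoGrp

/-!
# S5210, `q = 2`, piece (2U) (helper568)
-/

set_option autoImplicit false

namespace Cfsg.Agent.H568.P4

open Cfsg Cfsg.FusionSystem Cfsg.Agent.H776.P4
open Cfsg.Agent.H756.PU (HypK)

universe u

variable {K : Type u} [Field K] [StarRing K]

theorem au_injective : Function.Injective (au : K → MulAut (PV K)) := by
  intro r s h
  have h1 := au_b r (vV 1 1 e0)
  have h2 := au_b s (vV 1 1 e0)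
  rw [h, h2] at h1
  have hc : ((vV 1 1 e0 : PV K) : PG K).c = 1 := by
    show bk K true + bk K false + bk K false + bk K false = 1
    simp
  rw [hc, mul_one, mul_one] at h1
  exact (add_left_cancel h1).symm

/-- the standard group -/
structure Std (ω : K) (Δ : Subgroup (MulAut (PV K))) : Prop where
  card : Nat.card Δ = 36
  hau : ∀ r, au r ∈ Δ
  y : ∃ y ∈ Δ, Acts 1 ω y Y0
  z : ∃ z ∈ Δ, Acts 1 ω z W0

theorem Std.uniq (h : Four K) {ω : K} (hω : ω ^ 2 + ω + 1 = 0) {Δ Δ' : Subgroup (MulAut (PV K))} (hΔ : Std ω Δ)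
    (hΔ' : Std ω Δ') : Δ = Δ' := by
  have hρ : (1 : K) ^ 3 = 1 := one_pow 3
  have : Finite Δ := Nat.finite_of_card_ne_zero (by rw [hΔ.card]; omega)
  have : Finite Δ' := Nat.finite_of_card_ne_zero (by rw [hΔ'.card]; omega)
  set H := Δ ⊓ Δ' with hH
  have hHf : Finite H := Finite.Set.subset (Δ : Set (MulAut (PV K))) (fun x hx => hx.1)
  obtain ⟨y, hy, hyA⟩ := hΔ.y
  obtain ⟨y', hy', hyA'⟩ := hΔ'.y
  obtain ⟨z, hz, hzA⟩ := hΔ.z
  obtain ⟨z', hz', hzA'⟩ := hΔ'.z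
  have hyy : y' = y := hyA'.ext h hρ hω hyA (fun _ => rfl)
  have hzz : z' = z := hzA'.ext h hρ hω hzA (fun _ => rfl)
  subst hyy; subst hzz
  have h9 : 9 ∣ Nat.card H := by
    have hy3 : y' ^ 3 = 1 := by
      rw [pow_succ, sq]
      exact ((hyA.mul hyA).mul hyA).ext h hρ hω Acts.one Y0_three
    have hz3 : z' ^ 3 = 1 := by
      rw [pow_succ, sq]
      exact ((hzA.mul hzA).mul hzA).ext h hρ hω Acts.one W0_three
    have hc : y' * z' = z' * y' := (hyA.mul hzA).ext h hρ hω (hzA.mul hyA) finCom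
    refine nine_dvd (H := H) (y := ⟨y', hy, hy'⟩) (z := ⟨z', hz, hz'⟩) (Subtype.ext hc) (Subtype.ext hy3) (Subtype.ext hz3)
      ?_ ?_ ?_ ?_
    · intro h1
      have h2 : z' = 1 := congrArg Subtype.val h1
      rw [h2] at hzA
      exact finStd.2.1 (hzA.eq_of h hρ hω Acts.one e0)
    · intro h1
      have h2 : y' = 1 := congrArg Subtype.val h1
      rw [h2] at hyA
      exact finStd.1 (hyA.eq_of h hρ hω Acts.one e0)
    · intro h1
      have h2 : z' = y' := congrArg Subtype.val h1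
      rw [h2] at hzA
      obtain ⟨x, hx⟩ := finNe.1
      exact hx (hzA.eq_of h hρ hω hyA x)
    · intro h1
      have h2 : z' = y' ^ 2 := congrArg Subtype.val h1
      rw [h2, sq] at hzA
      obtain ⟨x, hx⟩ := finNe.2
      exact hx (hzA.eq_of h hρ hω (hyA.mul hyA) x)
  have h4 : 4 ∣ Nat.card H := by
    let f : Multiplicative K →* H := MonoidHom.mk' (fun r => ⟨au r.toAdd, hΔ.hau _, hΔ'.hau _⟩) (by
      intro a b; exact Subtype.ext (au_add _ _))
    have hf : Function.Injective f := by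
      intro a b hab
      exact Multiplicative.toAdd.injective (au_injective (congrArg Subtype.val hab))
    have h5 := Subgroup.card_dvd_of_injective f hf
    have h6 : Nat.card (Multiplicative K) = 4 := h.card
    rwa [h6] at h5
  have h36 : 36 ∣ Nat.card H := (Nat.Coprime.mul_dvd_of_dvd_of_dvd (by norm_num : Nat.Coprime 9 4) h9 h4)
  have hpos : 0 < Nat.card H := Nat.card_pos
  have h36' : 36 ≤ Nat.card H := Nat.le_of_dvd hpos h36
  have h1 : H = Δ := Subgroup.eq_of_le_of_card_ge inf_le_left (by rw [hΔ.card]; exact h36')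
  have h2 : H = Δ' := Subgroup.eq_of_le_of_card_ge inf_le_right (by rw [hΔ'.card]; exact h36')
  exact h1.symm.trans h2

/-- the eigenspaces -/
theorem norm_form (h : Four K) {ω : K} (hω : ω ^ 2 + ω + 1 = 0) {Γ : Subgroup (MulAut (PV K))} (hΓ : Nat.card Γ = 36)
    (hau : ∀ r, au r ∈ Γ) : ∃ ρ ω' : K, ρ ^ 3 = 1 ∧ ω' ^ 2 + ω' + 1 = 0 ∧ ∃ y ∈ Γ, ∃ z ∈ Γ, y ≠ 1 ∧ z ≠ 1 ∧ y ^ 9 = 1 ∧
      z ^ 9 = 1 ∧ y * z = z * y ∧ EE ρ ω' y ∧ FF ρ ω' z := by
  have h2 := h.two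
  have hω3 : ω ^ 3 = 1 := by linear_combination (ω - 1) * hω
  have hω2 : ω ^ 2 = 1 + ω := by linear_combination hω - (1 + ω) * h2
  have hω' : (ω ^ 2) ^ 2 + ω ^ 2 + 1 = 0 := by linear_combination hω + ω * hω3
  have hρ : (1 : K) ^ 3 = 1 := one_pow 3
  have hΓf : Finite Γ := Nat.finite_of_card_ne_zero (by omega)
  -- no central element of odd order
  have hcen : ∀ d : Γ, d ^ 9 = 1 → (∀ x, d * x = x * d) → d = 1 := by
    intro d hd hx
    apply Subtype.ext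
    refine F1 h hρ hω ?_ ?_ ?_
    · exact congrArg Subtype.val (hx ⟨au 1, hau 1⟩)
    · exact congrArg Subtype.val (hx ⟨au (1 * ω), hau _⟩)
    · exact congrArg Subtype.val hd
  obtain ⟨Q, hQ⟩ : ∃ Q : Subgroup Γ, Nat.card Q = 9 := by
    have : Fact (Nat.Prime 3) := ⟨by norm_num⟩
    obtain ⟨Q, hQ⟩ := Sylow.exists_subgroup_card_pow_prime (G := Γ) 3 (n := 2) (by rw [hΓ]; norm_num)
    exact ⟨Q, by rw [hQ]; norm_num⟩
  have hQn : Q.Normal := by
    refine ⟨fun q hq x => ?_⟩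
    have h1 : Nat.card (Q.map (MulAut.conj x).toMonoidHom) = 9 := by
      rw [← hQ]
      exact (Nat.card_congr (Q.equivMapOfInjective _ (MulAut.conj x).injective).toEquiv).symm
    have h3 : Q.map (MulAut.conj x).toMonoidHom = Q := by
      by_contra hne
      obtain ⟨d, hd1, hd9, hd⟩ := centre_of_two hΓ h1 hQ hne
      exact hd1 (hcen d hd9 hd)
    rw [← h3]
    exact ⟨q, hq, rfl⟩
  have hQc : ∀ a b : Q, a * b = b * a := by
    have : Fact (Nat.Prime 3) := ⟨by norm_num⟩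
    have h1 : IsMulCommutative Q := IsPGroup.isMulCommutative_of_card_eq_prime_sq (p := 3) (by rw [hQ]; norm_num)
    exact h1.is_comm.comm
  let _ : CommGroup Q := { (inferInstance : Group Q) with mul_comm := hQc }
  set A1 : Γ := ⟨au 1, hau 1⟩ with hA1
  set A2 : Γ := ⟨au ω, hau ω⟩ with hA2
  have hAA : ∀ r : K, au r * au r = 1 := by
    intro r
    rw [← au_add, show r + r = 0 by linear_combination r * h2, au_zero]
  have hA11 : A1 * A1 = 1 := Subtype.ext (hAA 1)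
  have hA22 : A2 * A2 = 1 := Subtype.ext (hAA ω)
  have hA12 : A1 * A2 = A2 * A1 := Subtype.ext (by
    show au 1 * au ω = au ω * au 1
    rw [← au_add, ← au_add, add_comm])
  let σ : Q →* Q := (MulAut.conjNormal (H := Q) A1).toMonoidHom
  let τ : Q →* Q := (MulAut.conjNormal (H := Q) A2).toMonoidHom
  have hσe : ∀ x : Q, ((σ x : Q) : Γ) = A1 * x * A1⁻¹ := fun x => rfl
  have hτe : ∀ x : Q, ((τ x : Q) : Γ) = A2 * x * A2⁻¹ := fun x => rfl
  -- translation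
  have com1 : ∀ x : Q, σ x = x → ((x : Γ) : MulAut (PV K)) * au 1 = au 1 * ((x : Γ) : MulAut (PV K)) := by
    intro x hx
    have h3 : A1 * x * A1⁻¹ = (x : Γ) := by rw [← hσe, hx]
    have h4 : A1 * x = x * A1 := mul_inv_eq_iff_eq_mul.1 h3
    exact (congrArg Subtype.val h4).symm
  have com2 : ∀ x : Q, τ x = x → ((x : Γ) : MulAut (PV K)) * au ω = au ω * ((x : Γ) : MulAut (PV K)) := by
    intro x hx
    have h3 : A2 * x * A2⁻¹ = (x : Γ) := by rw [← hτe, hx]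
    have h4 : A2 * x = x * A2 := mul_inv_eq_iff_eq_mul.1 h3
    exact (congrArg Subtype.val h4).symm
  have inv1 : ∀ x : Q, σ x = x⁻¹ → ((x : Γ) : MulAut (PV K)) * au 1 * ((x : Γ) : MulAut (PV K)) = au 1 := by
    intro x hx
    have h3 : A1 * x * A1⁻¹ = ((x : Γ))⁻¹ := by rw [← hσe, hx]; rfl
    have h4 : A1 * x = (x : Γ)⁻¹ * A1 := mul_inv_eq_iff_eq_mul.1 h3
    have h5 : (x : Γ) * A1 * x = A1 := by rw [mul_assoc, h4, mul_inv_cancel_left]
    exact congrArg Subtype.val h5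
  have inv2 : ∀ x : Q, τ x = x⁻¹ → ((x : Γ) : MulAut (PV K)) * au ω * ((x : Γ) : MulAut (PV K)) = au ω := by
    intro x hx
    have h3 : A2 * x * A2⁻¹ = ((x : Γ))⁻¹ := by rw [← hτe, hx]; rfl
    have h4 : A2 * x = (x : Γ)⁻¹ * A2 := mul_inv_eq_iff_eq_mul.1 h3
    have h5 : (x : Γ) * A2 * x = A2 := by rw [mul_assoc, h4, mul_inv_cancel_left]
    exact congrArg Subtype.val h5
  have h9 : ∀ x : Q, ((x : Γ) : MulAut (PV K)) ^ 9 = 1 := by
    intro x
    have h3 : x ^ 9 = 1 := by rw [← hQ]; exact pow_card_eq_one'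
    have h4 := congrArg (fun w : Q => ((w : Γ) : MulAut (PV K))) h3
    exact h4
  have h12 : au (ω ^ 2) = au 1 * au ω := by rw [hω2, au_add]
  -- `a b` commutes with `y` etc.
  have gCI : ∀ {a b y : MulAut (PV K)}, y * a = a * y → y * b * y = b → y * (a * b) * y = a * b := by
    intro a b y h3 h4
    rw [← mul_assoc, h3, mul_assoc a y b, mul_assoc a (y * b) y, h4]
  have gIC : ∀ {a b y : MulAut (PV K)}, y * a * y = a → y * b = b * y → y * (a * b) * y = a * b := by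
    intro a b y h3 h4
    rw [mul_assoc, mul_assoc, ← h4, ← mul_assoc, ← mul_assoc, h3]
  have gII : ∀ {a b y : MulAut (PV K)}, y * a * y = a → y * b * y = b → y * (a * b) = a * b * y := by
    intro a b y h3 h4
    have h5 : b * y = y⁻¹ * b := by rw [eq_inv_mul_iff_mul_eq, ← mul_assoc, h4]
    have h6 : y * a = a * y⁻¹ := by rw [eq_mul_inv_iff_mul_eq, h3]
    rw [← mul_assoc, h6, mul_assoc, mul_assoc, h5]
  have hωω : ω * ω ^ 2 = 1 := by rw [← hω3]; ring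
  have hωω' : ω ^ 2 * ω = 1 := by rw [← hω3]; ring
  have hω23 : (ω ^ 2) ^ 3 = 1 := by rw [← pow_mul, mul_comm, pow_mul, hω3, one_pow]
  have eA : ∀ x : Q, (σ x = x ∧ τ x = x⁻¹) → EE 1 ω ((x : Γ) : MulAut (PV K)) := by
    intro x hx
    refine ⟨com1 x hx.1, ?_⟩
    rw [one_mul]; exact inv2 x hx.2
  have eA' : ∀ x : Q, (σ x = x ∧ τ x = x⁻¹) → EE 1 (ω ^ 2) ((x : Γ) : MulAut (PV K)) := by
    intro x hx
    refine ⟨com1 x hx.1, ?_⟩
    rw [one_mul, h12]; exact gCI (com1 x hx.1) (inv2 x hx.2)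
  have eC : ∀ x : Q, (σ x = x⁻¹ ∧ τ x = x) → EE ω (ω ^ 2) ((x : Γ) : MulAut (PV K)) := by
    intro x hx
    refine ⟨com2 x hx.2, ?_⟩
    rw [hωω]; exact inv1 x hx.1
  have eC' : ∀ x : Q, (σ x = x⁻¹ ∧ τ x = x) → EE ω ω ((x : Γ) : MulAut (PV K)) := by
    intro x hx
    refine ⟨com2 x hx.2, ?_⟩
    rw [← sq, h12]; exact gIC (inv1 x hx.1) (com2 x hx.2)
  have eD : ∀ x : Q, (σ x = x⁻¹ ∧ τ x = x⁻¹) → EE (ω ^ 2) ω ((x : Γ) : MulAut (PV K)) := by
    intro x hx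
    refine ⟨?_, ?_⟩
    · rw [h12]; exact gII (inv1 x hx.1) (inv2 x hx.2)
    · rw [hωω']; exact inv1 x hx.1
  have hcom : ∀ y y' : Q, ((y : Γ) : MulAut (PV K)) * ((y' : Γ) : MulAut (PV K)) =
      ((y' : Γ) : MulAut (PV K)) * ((y : Γ) : MulAut (PV K)) := by
    intro y y'
    exact congrArg (fun w : Q => ((w : Γ) : MulAut (PV K))) (hQc y y')
  have hne : ∀ y : Q, y ≠ 1 → ((y : Γ) : MulAut (PV K)) ≠ 1 := by
    intro y hy h3; exact hy (Subtype.ext (Subtype.ext h3))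
  have back : ∀ y y' : Q, (((y' : Γ) : MulAut (PV K)) = 1 ∨ ((y' : Γ) : MulAut (PV K)) = ((y : Γ) : MulAut (PV K)) ∨
      ((y' : Γ) : MulAut (PV K)) = ((y : Γ) : MulAut (PV K)) ^ 2) → y' = 1 ∨ y' = y ∨ y' = y ^ 2 := by
    intro y y' h3
    rcases h3 with h3 | h3 | h3
    · exact Or.inl (Subtype.ext (Subtype.ext h3))
    · exact Or.inr (Or.inl (Subtype.ext (Subtype.ext h3)))
    · exact Or.inr (Or.inr (Subtype.ext (Subtype.ext h3)))
  obtain ⟨y, z, hy1, hz1, hyz⟩ := two_of_three hQ σ τ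
    (by
      intro x
      apply Subtype.ext
      rw [hσe, hσe, mul_assoc, mul_assoc, mul_assoc, ← mul_inv_rev, hA11, ← mul_assoc, ← mul_assoc, hA11]
      simp)
    (by
      intro x
      apply Subtype.ext
      rw [hτe, hτe, mul_assoc, mul_assoc, mul_assoc, ← mul_inv_rev, hA22, ← mul_assoc, ← mul_assoc, hA22]
      simp)
    (by
      intro x
      apply Subtype.ext
      rw [hσe, hτe, hτe, hσe]
      calc A1 * (A2 * (x : Γ) * A2⁻¹) * A1⁻¹ = (A1 * A2) * x * (A1 * A2)⁻¹ := by group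
        _ = (A2 * A1) * x * (A2 * A1)⁻¹ := by rw [hA12]
        _ = A2 * (A1 * x * A1⁻¹) * A2⁻¹ := by group)
    (by
      intro x hx hx'
      have h3 : ((x : Γ) : MulAut (PV K)) = 1 := F1 h hρ hω (com1 x hx) (by rw [one_mul]; exact com2 x hx') (h9 x)
      exact Subtype.ext (Subtype.ext h3))
    (fun y y' hy hy' hy1 => back y y' (EE_small h hρ hω (eA y hy) (h9 y) (eA y' hy') (h9 y') (hcom y y') (hne y hy1)))
    (fun y y' hy hy' hy1 => back y y' (EE_small h hω3 hω' (eC y hy) (h9 y) (eC y' hy') (h9 y') (hcom y y') (hne y hy1)))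
    (fun y y' hy hy' hy1 => back y y' (EE_small h hω23 hω (eD y hy) (h9 y) (eD y' hy') (h9 y') (hcom y y') (hne y hy1)))
  rcases hyz with (⟨hy, hz⟩ | ⟨hy, hz⟩) | ⟨hy, hz⟩
  · refine ⟨1, ω, hρ, hω, y, (y : Γ).2, z, (z : Γ).2, hne y hy1, hne z hz1, h9 y, h9 z, hcom y z, eA y hy, ?_, inv1 z hz.1⟩
    rw [one_mul]; exact com2 z hz.2
  · refine ⟨1, ω ^ 2, hρ, hω', y, (y : Γ).2, z, (z : Γ).2, hne y hy1, hne z hz1, h9 y, h9 z, hcom y z, eA' y hy, ?_,
      inv1 z hz.1⟩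
    rw [one_mul]; exact (eD z hz).1
  · refine ⟨ω, ω, hω3, hω, y, (y : Γ).2, z, (z : Γ).2, hne y hy1, hne z hz1, h9 y, h9 z, hcom y z, eC' y hy, ?_,
      inv2 z hz.2⟩
    rw [← sq]; exact (eD z hz).1

/-- conjugation into the standard group -/
theorem standard (h : Four K) {ω : K} (hω : ω ^ 2 + ω + 1 = 0) {Γ : Subgroup (MulAut (PV K))} (hΓ : Nat.card Γ = 36)
    (hau : ∀ r, au r ∈ Γ) : ∃ (θ : MulAut (PG K)) (t : MulAut (PV K)), IsRP θ t ∧
      Std ω (Γ.map (MulAut.conj t).toMonoidHom) := by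
  have h1 : (1 : K) ^ 3 = 1 := one_pow 3
  obtain ⟨ρ, ω', hρ, hω', y, hy, z, hz, hy1, hz1, hy9, hz9, hc, hE, hF⟩ := norm_form h hω hΓ hau
  obtain ⟨θ1, t1, hr1, hc1, hY, hW⟩ := transport h hρ hω' hE hy9 hF hz9 hc hy1 hz1
  obtain ⟨θ2, t2, hr2, hc2, hm⟩ := move h hρ hω' h1 hω
  have hact : ∀ {w : MulAut (PV K)} {f : Mk → Mk}, Acts ρ ω' w f → Acts 1 ω (t2 * w * t2⁻¹) f := by
    intro w f hw x
    rw [← hm x, MulAut.mul_apply, MulAut.mul_apply, MulAut.inv_apply_self, hw, hm]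
  have hmem : ∀ w ∈ Γ, t2 * (t1 * w * t1⁻¹) * t2⁻¹ ∈ Γ.map (MulAut.conj (t2 * t1)).toMonoidHom := by
    intro w hw
    refine ⟨w, hw, ?_⟩
    show t2 * t1 * w * (t2 * t1)⁻¹ = _
    group
  refine ⟨θ2 * θ1, t2 * t1, isRP_mul hr2 hr1, ?_, ?_, ⟨_, hmem y hy, hact hY⟩, ⟨_, hmem z hz, hact hW⟩⟩
  · rw [← hΓ]
    exact (Nat.card_congr (Γ.equivMapOfInjective _ (MulAut.conj (t2 * t1)).injective).toEquiv).symm
  · intro r'
    obtain ⟨r, hr⟩ := hc2 r'
    have h3 := hmem _ (hau r)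
    rwa [hc1, mul_inv_cancel_right, hr] at h3

/-- (2U) -/
theorem twoU : StTwoU.{u} := by
  intro K _ _ p n hyp hpn Γ Γ' hΓ hΓ' hc hc'
  have h := Four.of_hyp hyp hpn
  have hfin := h.fin
  -- an element of order three
  obtain ⟨ω, hω⟩ : ∃ ω : K, ω ^ 2 + ω + 1 = 0 := by
    have : Fintype K := Fintype.ofFinite K
    by_contra hno
    have h1 : ∀ x : K, x = 0 ∨ x = 1 := by
      intro x
      have h2 : x * ((x - 1) * (x ^ 2 + x + 1)) = 0 := by linear_combination h.four x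
      rcases mul_eq_zero.1 h2 with h3 | h3
      · exact Or.inl h3
      rcases mul_eq_zero.1 h3 with h3 | h3
      · exact Or.inr (sub_eq_zero.1 h3)
      · exact absurd ⟨x, h3⟩ hno
    have h2 : (Set.univ : Set K) ⊆ {0, 1} := by
      intro x _
      rcases h1 x with h3 | h3 <;> simp [h3]
    have h3 := Set.ncard_le_ncard h2 (Set.toFinite _)
    rw [Set.ncard_univ, h.card, Set.ncard_pair zero_ne_one] at h3
    omega
  obtain ⟨θ, t, hr, hS⟩ := standard h hω hc (fun r => hΓ (au_mem r))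
  obtain ⟨θ', t', hr', hS'⟩ := standard h hω hc' (fun r => hΓ' (au_mem r))
  have heq := hS.uniq h hω hS'
  refine ⟨θ'⁻¹ * θ, t'⁻¹ * t, isRP_mul (isRP_inv hr') hr, ?_⟩
  have h1 : (MulAut.conj (t'⁻¹ * t)).toMonoidHom = (MulAut.conj t'⁻¹).toMonoidHom.comp (MulAut.conj t).toMonoidHom := by
    ext1 x
    show t'⁻¹ * t * x * (t'⁻¹ * t)⁻¹ = t'⁻¹ * (t * x * t⁻¹) * t'⁻¹⁻¹
    group
  rw [h1, ← Subgroup.map_map, heq, Subgroup.map_map]
  have h2 : (MulAut.conj t'⁻¹).toMonoidHom.comp (MulAut.conj t').toMonoidHom = MonoidHom.id _ := by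
    ext1 x
    show t'⁻¹ * (t' * x * t'⁻¹) * t'⁻¹⁻¹ = x
    group
  rw [h2, Subgroup.map_id]

end Cfsg.Agent.H568.P4
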